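import Cfsg.Prelude.Def_GeometricClasses
import Mathlib

set_option autoImplicit false
set_option linter.unusedSectionVars false

namespace Cfsg.Agent.Lib.Helper20.C2NonMax

open Cfsg Cfsg.Geo

section Framework

variable {F : Type*} [Field F] {n t : ℕ}

/-- The sum of all the members of the decomposition other than the `i`-th. -/
def co (D : Fin t → Submodule F (Fin n → F)) (i : Fin t) : Submodule F (Fin n → F) :=
  ⨆ k, ⨆ (_ : k ≠ i), D k

open Classical in
/-- The weight: the number of members of the decomposition in which `x` has a non-zero component. -/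
noncomputable def wt (D : Fin t → Submodule F (Fin n → F)) (x : Fin n → F) : ℕ :=
  ∑ i, if x ∈ co D i then 0 else 1

theorem toLin_injective (g : Matrix.GeneralLinearGroup (Fin n) F) :
    Function.Injective (Matrix.toLin' (g : Matrix (Fin n) (Fin n) F)) := by
  have h : Function.LeftInverse (Matrix.toLin' ((g⁻¹ : Matrix.GeneralLinearGroup (Fin n) F) :
      Matrix (Fin n) (Fin n) F)) (Matrix.toLin' (g : Matrix (Fin n) (Fin n) F)) := by
    intro x
    rw [← LinearMap.comp_apply, ← Matrix.toLin'_mul, ← Units.val_mul, inv_mul_cancel, Units.val_one,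
      Matrix.toLin'_one]
    rfl
  exact h.injective

theorem wt_stab (D : Fin t → Submodule F (Fin n → F)) (g : Matrix.GeneralLinearGroup (Fin n) F)
    (hg : g ∈ decompositionStabilizer D) (x : Fin n → F) :
    wt D (Matrix.toLin' (g : Matrix (Fin n) (Fin n) F) x) = wt D x := by
  classical
  obtain ⟨σ, hσ⟩ := hg
  have hmap : ∀ i, (co D i).map (Matrix.toLin' (g : Matrix (Fin n) (Fin n) F)) = co D (σ i) := by
    intro i
    simp only [co, Submodule.map_iSup, hσ]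
    apply le_antisymm
    · apply iSup₂_le
      intro k hk
      exact le_iSup₂_of_le (σ k) (by simpa using hk) le_rfl
    · apply iSup₂_le
      intro k hk
      refine le_iSup₂_of_le (σ.symm k) ?_ (by simp)
      intro h
      apply hk
      rw [← h]
      simp
  have hinj := toLin_injective g
  have key : ∀ i, Matrix.toLin' (g : Matrix (Fin n) (Fin n) F) x ∈ co D (σ i) ↔ x ∈ co D i := by
    intro i
    rw [← hmap i]
    constructor
    · rintro ⟨y, hy, hyx⟩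
      rw [← hinj hyx]
      exact hy
    · intro h
      exact Submodule.mem_map_of_mem h
  unfold wt
  rw [← Equiv.sum_comp σ]
  simp only [key]

/-- The intermediate subgroup: elements of `SL` preserving the weight modulo the characteristic. -/
def Kgrp (D : Fin t → Submodule F (Fin n → F)) : Subgroup (Matrix.GeneralLinearGroup (Fin n) F) where
  carrier := {g | g ∈ specialLinear (Fin n) F ∧
    ∀ x, (wt D (Matrix.toLin' (g : Matrix (Fin n) (Fin n) F) x) : F) = wt D x}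
  mul_mem' := by
    rintro a b ⟨ha, ha'⟩ ⟨hb, hb'⟩
    refine ⟨mul_mem ha hb, fun x => ?_⟩
    rw [Units.val_mul, Matrix.toLin'_mul, LinearMap.comp_apply, ha', hb']
  one_mem' := by
    refine ⟨one_mem _, fun x => ?_⟩
    rw [Units.val_one, Matrix.toLin'_one]
    rfl
  inv_mem' := by
    rintro a ⟨ha, ha'⟩
    refine ⟨inv_mem ha, fun x => ?_⟩
    have h := ha' (Matrix.toLin' ((a⁻¹ : Matrix.GeneralLinearGroup (Fin n) F) :
      Matrix (Fin n) (Fin n) F) x)
    rw [← LinearMap.comp_apply, ← Matrix.toLin'_mul, ← Units.val_mul, mul_inv_cancel, Units.val_one,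
      Matrix.toLin'_one] at h
    exact h.symm

theorem exists_gl (L : (Fin n → F) →ₗ[F] (Fin n → F)) (hL : LinearMap.det L = 1) :
    ∃ g : Matrix.GeneralLinearGroup (Fin n) F, g ∈ specialLinear (Fin n) F ∧
      Matrix.toLin' (g : Matrix (Fin n) (Fin n) F) = L := by
  have hdet : (LinearMap.toMatrix' L).det = 1 := by rw [LinearMap.det_toMatrix', hL]
  refine ⟨Matrix.GeneralLinearGroup.mkOfDetNeZero (LinearMap.toMatrix' L)
    (by rw [hdet]; exact one_ne_zero), ?_, ?_⟩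
  · show Matrix.GeneralLinearGroup.det _ = 1
    apply Units.ext
    simpa [Matrix.GeneralLinearGroup.mkOfDetNeZero] using hdet
  · simp [Matrix.GeneralLinearGroup.mkOfDetNeZero]

theorem exists_basis (m : ℕ) (D : Fin t → Submodule F (Fin n → F)) (hD : IsMDecomposition m D) :
    ∃ b : Module.Basis (Σ _ : Fin t, Fin m) F (Fin n → F),
      ∀ i, D i = Submodule.span F (Set.range fun j => b ⟨i, j⟩) := by
  classical
  have hInt := DirectSum.isInternal_submodule_of_iSupIndep_of_iSup_eq_top hD.indep hD.iSup_eq_top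
  let v : ∀ i, Module.Basis (Fin m) F (D i) := fun i =>
    Module.finBasisOfFinrankEq F (D i) (hD.finrank_eq i)
  refine ⟨hInt.collectedBasis v, fun i => ?_⟩
  have h1 : Submodule.span F (Set.range (v i)) = ⊤ := (v i).span_eq
  have h2 : (Submodule.span F (Set.range (v i))).map (D i).subtype = D i := by
    rw [h1, Submodule.map_top, Submodule.range_subtype]
  conv_lhs => rw [← h2]
  rw [Submodule.map_span, ← Set.range_comp]
  congr 2
  ext j
  simp [DirectSum.IsInternal.collectedBasis_coe]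

variable {m : ℕ} {D : Fin t → Submodule F (Fin n → F)}
  (b : Module.Basis (Σ _ : Fin t, Fin m) F (Fin n → F))
  (hb : ∀ i, D i = Submodule.span F (Set.range fun j => b ⟨i, j⟩))

include hb in
theorem mem_co_iff (i : Fin t) (x : Fin n → F) :
    x ∈ co D i ↔ ∀ j, b.repr x ⟨i, j⟩ = 0 := by
  classical
  constructor
  · intro hx j
    have hle : co D i ≤ LinearMap.ker (b.coord ⟨i, j⟩) := by
      apply iSup₂_le
      intro k hk
      rw [hb k, Submodule.span_le]
      rintro _ ⟨j', rfl⟩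
      simp only [SetLike.mem_coe, LinearMap.mem_ker, Module.Basis.coord_apply, Module.Basis.repr_self]
      rw [Finsupp.single_apply, if_neg]
      intro h
      exact hk (congrArg Sigma.fst h)
    have := hle hx
    simpa using this
  · intro h
    rw [← b.sum_repr x]
    apply Submodule.sum_mem
    rintro ⟨k, j⟩ _
    by_cases hk : k = i
    · subst hk
      rw [h j, zero_smul]
      exact zero_mem _
    · apply Submodule.smul_mem
      apply Submodule.mem_iSup_of_mem k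
      apply Submodule.mem_iSup_of_mem hk
      rw [hb k]
      exact Submodule.subset_span ⟨j, rfl⟩

include hb in
open Classical in
theorem wt_cast (x : Fin n → F) :
    (wt D x : F) = ∑ i, if (∀ j, b.repr x ⟨i, j⟩ = 0) then (0 : F) else 1 := by
  unfold wt
  push_cast
  refine Finset.sum_congr rfl fun i _ => ?_
  by_cases h : x ∈ co D i
  · rw [if_pos h, if_pos ((mem_co_iff b hb i x).mp h)]
  · rw [if_neg h, if_neg (fun h' => h ((mem_co_iff b hb i x).mpr h'))]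

include hb in
theorem basis_mem (i : Fin t) (j : Fin m) : b ⟨i, j⟩ ∈ D i := by
  rw [hb i]
  exact Submodule.subset_span ⟨j, rfl⟩

include hb in
theorem not_stab_of (g : Matrix.GeneralLinearGroup (Fin n) F) (x₀ : Fin n → F) (i₀ : Fin t)
    (hx₀ : x₀ ∈ D i₀) (i1 i2 : Fin t) (h12 : i1 ≠ i2) (j1 j2 : Fin m)
    (h1 : b.repr (Matrix.toLin' (g : Matrix (Fin n) (Fin n) F) x₀) ⟨i1, j1⟩ ≠ 0)
    (h2 : b.repr (Matrix.toLin' (g : Matrix (Fin n) (Fin n) F) x₀) ⟨i2, j2⟩ ≠ 0) :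
    g ∉ decompositionStabilizer D := by
  rintro ⟨σ, hσ⟩
  have hmem : Matrix.toLin' (g : Matrix (Fin n) (Fin n) F) x₀ ∈ D (σ i₀) := by
    rw [← hσ]
    exact Submodule.mem_map_of_mem hx₀
  have hz : ∀ i, i ≠ σ i₀ → ∀ j, b.repr (Matrix.toLin' (g : Matrix (Fin n) (Fin n) F) x₀) ⟨i, j⟩ = 0 := by
    intro i hi
    have hle : D (σ i₀) ≤ co D i := le_iSup₂_of_le (σ i₀) (fun h => hi h.symm) le_rfl
    exact (mem_co_iff b hb i _).mp (hle hmem)
  have e1 : i1 = σ i₀ := by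
    by_contra hne
    exact h1 (hz i1 hne j1)
  have e2 : i2 = σ i₀ := by
    by_contra hne
    exact h2 (hz i2 hne j2)
  exact h12 (e1.trans e2.symm)

end Framework

section Trans

variable {F : Type*} [Field F] {V : Type*} [AddCommGroup V] [Module F V]
  {I : Type*} [Fintype I] [DecidableEq I]

/-- `x ↦ x + (∑ₖ x_{c k}) • ∑ₖ b_{d k}`. -/
noncomputable def T (b : Module.Basis I F V) {r r' : ℕ} (c : Fin r → I) (d : Fin r' → I) :
    V →ₗ[F] V :=
  LinearMap.transvection (∑ k, b.coord (c k)) (∑ k, b (d k))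

omit [Fintype I] [DecidableEq I] in
theorem T_apply (b : Module.Basis I F V) {r r' : ℕ} (c : Fin r → I) (d : Fin r' → I) (x : V) :
    T b c d x = x + (∑ k, b.repr x (c k)) • ∑ k, b (d k) := by
  simp [T, LinearMap.transvection.apply]

theorem repr_T (b : Module.Basis I F V) {r r' : ℕ} (c : Fin r → I) (d : Fin r' → I) (x : V) (i : I) :
    b.repr (T b c d x) i
      = b.repr x i + (∑ k, b.repr x (c k)) * (∑ k, if d k = i then 1 else 0) := by
  rw [T_apply]
  simp [Finsupp.single_apply]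

theorem det_T (b : Module.Basis I F V) {r r' : ℕ} (c : Fin r → I) (d : Fin r' → I) :
    LinearMap.det (T b c d) = 1 + ∑ k, ∑ k', if d k' = c k then 1 else 0 := by
  have := Module.Finite.of_basis b
  have := Module.Free.of_basis b
  rw [T, LinearMap.transvection.det]
  simp only [LinearMap.sum_apply, map_sum, Module.Basis.coord_apply, Module.Basis.repr_self,
    Finsupp.single_apply]
  rw [Finset.sum_comm]

theorem sum_sub_of_eq_off {ι : Type*} [Fintype ι] [DecidableEq ι] {r : ℕ} (e : Fin r → ι)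
    (he : Function.Injective e) (A B : ι → F) (h : ∀ i, (∀ k, e k ≠ i) → A i = B i) :
    ∑ i, A i - ∑ i, B i = ∑ k, (A (e k) - B (e k)) := by
  rw [← Finset.sum_sub_distrib]
  have h1 := Finset.sum_image (s := Finset.univ) (g := e) (f := fun i => A i - B i)
    (fun a _ b _ hab => he hab)
  rw [← h1]
  symm
  apply Finset.sum_subset (Finset.subset_univ _)
  intro i _ hi
  rw [h i (fun k hk => hi (by simp [← hk])), sub_self]

end Trans

section Cases

variable {F : Type*} [Field F] {n t : ℕ} {m : ℕ} {D : Fin t → Submodule F (Fin n → F)}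

/-- An element of `SL` that does not preserve the weight modulo the characteristic. -/
theorem exists_not_inv (b : Module.Basis (Σ _ : Fin t, Fin m) F (Fin n → F))
    (hb : ∀ i, D i = Submodule.span F (Set.range fun j => b ⟨i, j⟩))
    (i0 i1 : Fin t) (h01 : i0 ≠ i1) (j0 : Fin m) :
    ∃ L : (Fin n → F) →ₗ[F] (Fin n → F), LinearMap.det L = 1 ∧
      ∃ x, (wt D (L x) : F) ≠ wt D x := by
  classical
  refine ⟨T b (fun _ : Fin 1 => ⟨i0, j0⟩) (fun _ : Fin 1 => ⟨i1, j0⟩), ?_, b ⟨i0, j0⟩, ?_⟩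
  · rw [det_T]
    simp [h01.symm]
  · rw [wt_cast b hb, wt_cast b hb]
    intro heq
    have hsub := sum_sub_of_eq_off (F := F) (fun _ : Fin 1 => i1)
      (Function.injective_of_subsingleton _)
      (fun i => if (∀ j, b.repr (T b (fun _ : Fin 1 => (⟨i0, j0⟩ : Σ _ : Fin t, Fin m))
        (fun _ : Fin 1 => ⟨i1, j0⟩) (b ⟨i0, j0⟩)) ⟨i, j⟩ = 0) then (0 : F) else 1)
      (fun i => if (∀ j, b.repr (b ⟨i0, j0⟩) ⟨i, j⟩ = 0) then (0 : F) else 1) (by
        intro i hi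
        have hi' : i1 ≠ i := hi 0
        simp [repr_T, hi'])
    rw [heq, sub_self] at hsub
    have hA : ¬ (∀ j, b.repr (T b (fun _ : Fin 1 => (⟨i0, j0⟩ : Σ _ : Fin t, Fin m))
        (fun _ : Fin 1 => ⟨i1, j0⟩) (b ⟨i0, j0⟩)) ⟨i1, j⟩ = 0) := by
      intro h
      have := h j0
      rw [repr_T] at this
      simp [Finsupp.single_apply, h01] at this
    have hB : ∀ j, b.repr (b ⟨i0, j0⟩) ⟨i1, j⟩ = 0 := by
      intro j
      simp [Finsupp.single_apply, h01]
    simp only [Finset.univ_unique, Finset.sum_singleton] at hsub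
    rw [if_neg hA, if_pos hB] at hsub
    simp at hsub

/-! ### `m = 1` -/

open Classical in
theorem chi_one [Fintype F] (a : Fin 1 → F) :
    (if (∀ j, a j = 0) then (0 : F) else 1) = (a 0) ^ (Fintype.card F - 1) := by
  have hq := Fintype.one_lt_card (α := F)
  by_cases h : a 0 = 0
  · rw [if_pos (by rw [Fin.forall_fin_one]; exact h), h, zero_pow (by omega)]
  · rw [if_neg (by rw [Fin.forall_fin_one]; exact h), FiniteField.pow_card_sub_one_eq_one _ h]

theorem wt_cast_one [Fintype F] (b : Module.Basis (Σ _ : Fin t, Fin 1) F (Fin n → F))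
    (hb : ∀ i, D i = Submodule.span F (Set.range fun j => b ⟨i, j⟩)) (x : Fin n → F) :
    (wt D x : F) = ∑ i, (b.repr x ⟨i, 0⟩) ^ (Fintype.card F - 1) := by
  classical
  rw [wt_cast b hb]
  exact Finset.sum_congr rfl fun i _ => chi_one (fun j => b.repr x ⟨i, j⟩)

theorem char_facts [Fintype F] (hq : Fintype.card F ≤ 4) :
    (Fintype.card F = 2 ∧ (2 : F) = 0) ∨ (Fintype.card F = 3 ∧ (3 : F) = 0) ∨
      (Fintype.card F = 4 ∧ (2 : F) = 0) := by
  have h1 := Fintype.one_lt_card (α := F)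
  have hc := FiniteField.cast_card_eq_zero F
  obtain ⟨q, hq'⟩ : ∃ q, q = Fintype.card F := ⟨_, rfl⟩
  rw [← hq'] at hq h1 hc ⊢
  interval_cases q
  · left
    exact ⟨rfl, by exact_mod_cast hc⟩
  · right; left
    exact ⟨rfl, by exact_mod_cast hc⟩
  · right; right
    refine ⟨rfl, ?_⟩
    have h4 : (2 : F) ^ 2 = 0 := by
      norm_num
      exact_mod_cast hc
    exact (pow_eq_zero_iff (two_ne_zero)).mp h4

theorem inv_m1 [Fintype F] (hq : Fintype.card F ≤ 4)
    (b : Module.Basis (Σ _ : Fin t, Fin 1) F (Fin n → F))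
    (hb : ∀ i, D i = Submodule.span F (Set.range fun j => b ⟨i, j⟩))
    (e : Fin 4 → Fin t) (he : Function.Injective e) (x : Fin n → F) :
    (wt D (T b (fun k => (⟨e k, 0⟩ : Σ _ : Fin t, Fin 1)) (fun k => ⟨e k, 0⟩) x) : F) = wt D x := by
  classical
  rw [wt_cast_one b hb, wt_cast_one b hb, ← sub_eq_zero]
  rw [sum_sub_of_eq_off e he
    (fun i => (b.repr (T b (fun k => (⟨e k, 0⟩ : Σ _ : Fin t, Fin 1)) (fun k => ⟨e k, 0⟩) x) ⟨i, 0⟩)
      ^ (Fintype.card F - 1))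
    (fun i => (b.repr x ⟨i, 0⟩) ^ (Fintype.card F - 1))]
  · have hc : ∀ k, b.repr (T b (fun k => (⟨e k, 0⟩ : Σ _ : Fin t, Fin 1)) (fun k => ⟨e k, 0⟩) x)
        ⟨e k, 0⟩ = b.repr x ⟨e k, 0⟩ + ∑ k', b.repr x ⟨e k', 0⟩ := by
      intro k
      rw [repr_T]
      simp [he.eq_iff]
    simp only [hc, Fin.sum_univ_four]
    generalize b.repr x ⟨e 0, 0⟩ = a0
    generalize b.repr x ⟨e 1, 0⟩ = a1
    generalize b.repr x ⟨e 2, 0⟩ = a2
    generalize b.repr x ⟨e 3, 0⟩ = a3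
    rcases char_facts hq with ⟨h, h2⟩ | ⟨h, h3⟩ | ⟨h, h2⟩
    · rw [h]
      norm_num
      linear_combination (2 * (a0 + a1 + a2 + a3)) * h2
    · rw [h]
      norm_num
      linear_combination (2 * (a0 + a1 + a2 + a3) ^ 2) * h3
    · rw [h]
      norm_num
      linear_combination ((a0 + a1 + a2 + a3) * (a0 ^ 2 + a1 ^ 2 + a2 ^ 2 + a3 ^ 2 + a0 * a1 + a0 * a2
        + a0 * a3 + a1 * a2 + a1 * a3 + a2 * a3) + (a0 + a1 + a2 + a3) * (a0 ^ 2 + a1 ^ 2 + a2 ^ 2
        + a3 ^ 2) + 3 * (a0 + a1 + a2 + a3) ^ 3) * h2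
  · intro i hi
    rw [repr_T]
    simp [hi]

theorem exists_m1 [Fintype F] (hq : Fintype.card F ≤ 4) (ht : 8 ≤ t)
    (b : Module.Basis (Σ _ : Fin t, Fin 1) F (Fin n → F))
    (hb : ∀ i, D i = Submodule.span F (Set.range fun j => b ⟨i, j⟩)) :
    ∃ L : (Fin n → F) →ₗ[F] (Fin n → F), LinearMap.det L = 1 ∧
      (∀ x, (wt D (L x) : F) = wt D x) ∧
      ∃ (x₀ : Fin n → F) (i₀ : Fin t), x₀ ∈ D i₀ ∧ ∃ (i1 i2 : Fin t) (j1 j2 : Fin 1), i1 ≠ i2 ∧
        b.repr (L x₀) ⟨i1, j1⟩ ≠ 0 ∧ b.repr (L x₀) ⟨i2, j2⟩ ≠ 0 := by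
  classical
  obtain ⟨e, he⟩ : ∃ e : Fin 4 → Fin t, e = fun k => ⟨k.1, by omega⟩ := ⟨_, rfl⟩
  obtain ⟨e', he'⟩ : ∃ e' : Fin 4 → Fin t, e' = fun k => ⟨k.1 + 4, by omega⟩ := ⟨_, rfl⟩
  have hinj : Function.Injective e := by
    intro a c hac
    rw [he] at hac
    simpa [Fin.ext_iff] using hac
  have hinj' : Function.Injective e' := by
    intro a c hac
    rw [he'] at hac
    simpa [Fin.ext_iff] using hac
  have hdisj : ∀ k k', e k ≠ e' k' := by
    intro k k' h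
    rw [he, he'] at h
    simp only [Fin.mk.injEq] at h
    omega
  have hdet : ∀ f : Fin 4 → Fin t, Function.Injective f →
      LinearMap.det (T b (fun k => (⟨f k, 0⟩ : Σ _ : Fin t, Fin 1)) (fun k => ⟨f k, 0⟩)) = 5 := by
    intro f hf
    rw [det_T]
    simp [hf.eq_iff]
    norm_num
  refine ⟨T b (fun k => (⟨e k, 0⟩ : Σ _ : Fin t, Fin 1)) (fun k => ⟨e k, 0⟩) ∘ₗ
    T b (fun k => (⟨e' k, 0⟩ : Σ _ : Fin t, Fin 1)) (fun k => ⟨e' k, 0⟩), ?_, ?_, ?_⟩
  · rw [LinearMap.det_comp, hdet e hinj, hdet e' hinj']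
    rcases char_facts hq with ⟨-, h2⟩ | ⟨-, h3⟩ | ⟨-, h2⟩
    · linear_combination 12 * h2
    · linear_combination 8 * h3
    · linear_combination 12 * h2
  · intro x
    rw [LinearMap.comp_apply, inv_m1 hq b hb e hinj, inv_m1 hq b hb e' hinj']
  · refine ⟨b ⟨e 0, 0⟩, e 0, basis_mem b hb _ _, e 1, e 2, 0, 0, ?_, ?_, ?_⟩
    · intro h
      have := hinj h
      simp at this
    · have hfix : T b (fun k => (⟨e' k, 0⟩ : Σ _ : Fin t, Fin 1)) (fun k => ⟨e' k, 0⟩) (b ⟨e 0, 0⟩)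
          = b ⟨e 0, 0⟩ := by
        rw [T_apply]
        simp [Finsupp.single_apply, hdisj]
      rw [LinearMap.comp_apply, hfix, repr_T]
      simp [Finsupp.single_apply, hinj.eq_iff]
    · have hfix : T b (fun k => (⟨e' k, 0⟩ : Σ _ : Fin t, Fin 1)) (fun k => ⟨e' k, 0⟩) (b ⟨e 0, 0⟩)
          = b ⟨e 0, 0⟩ := by
        rw [T_apply]
        simp [Finsupp.single_apply, hdisj]
      rw [LinearMap.comp_apply, hfix, repr_T]
      simp [Finsupp.single_apply, hinj.eq_iff]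

/-! ### `m = 2` -/

theorem f2_facts [Fintype F] (hq : Fintype.card F = 2) :
    (2 : F) = 0 ∧ ∀ z : F, z * z = z := by
  have hc := FiniteField.cast_card_eq_zero F
  rw [hq] at hc
  refine ⟨by exact_mod_cast hc, fun z => ?_⟩
  have h := FiniteField.pow_card z
  rw [hq, pow_two] at h
  exact h

open Classical in
theorem chi_two [Fintype F] (hq : Fintype.card F = 2) (a : Fin 2 → F) :
    (if (∀ j, a j = 0) then (0 : F) else 1) = a 0 + a 1 + a 0 * a 1 := by
  obtain ⟨h2, hz⟩ := f2_facts hq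
  have h01 : ∀ z : F, z = 0 ∨ z = 1 := by
    intro z
    have h : z * (z - 1) = 0 := by linear_combination hz z
    rcases mul_eq_zero.mp h with h | h
    · exact Or.inl h
    · exact Or.inr (sub_eq_zero.mp h)
  rcases h01 (a 0) with h0 | h0 <;> rcases h01 (a 1) with h1 | h1
  · rw [if_pos (by rw [Fin.forall_fin_two]; exact ⟨h0, h1⟩), h0, h1]
    ring
  · rw [if_neg (by rw [Fin.forall_fin_two]; rintro ⟨-, h⟩; rw [h1] at h; exact one_ne_zero h), h0, h1]
    ring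
  · rw [if_neg (by rw [Fin.forall_fin_two]; rintro ⟨h, -⟩; rw [h0] at h; exact one_ne_zero h), h0, h1]
    ring
  · rw [if_neg (by rw [Fin.forall_fin_two]; rintro ⟨h, -⟩; rw [h0] at h; exact one_ne_zero h), h0, h1]
    linear_combination (-1 : F) * h2

theorem wt_cast_two [Fintype F] (hq : Fintype.card F = 2)
    (b : Module.Basis (Σ _ : Fin t, Fin 2) F (Fin n → F))
    (hb : ∀ i, D i = Submodule.span F (Set.range fun j => b ⟨i, j⟩)) (x : Fin n → F) :
    (wt D x : F) = ∑ i, (b.repr x ⟨i, 0⟩ + b.repr x ⟨i, 1⟩ + b.repr x ⟨i, 0⟩ * b.repr x ⟨i, 1⟩) := by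
  classical
  rw [wt_cast b hb]
  exact Finset.sum_congr rfl fun i _ => chi_two hq (fun j => b.repr x ⟨i, j⟩)

theorem inv_m2 [Fintype F] (hq : Fintype.card F = 2)
    (b : Module.Basis (Σ _ : Fin t, Fin 2) F (Fin n → F))
    (hb : ∀ i, D i = Submodule.span F (Set.range fun j => b ⟨i, j⟩))
    (e : Fin 3 → Fin t) (he : Function.Injective e) (x : Fin n → F) :
    (wt D (T b (fun k => (⟨e k, 1⟩ : Σ _ : Fin t, Fin 2)) (fun k => ⟨e k, 0⟩) x) : F) = wt D x := by
  classical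
  obtain ⟨h2, hz⟩ := f2_facts hq
  have h1 : ∀ i, b.repr (T b (fun k => (⟨e k, 1⟩ : Σ _ : Fin t, Fin 2)) (fun k => ⟨e k, 0⟩) x)
      ⟨i, 1⟩ = b.repr x ⟨i, 1⟩ := by
    intro i
    rw [repr_T]
    simp
  rw [wt_cast_two hq b hb, wt_cast_two hq b hb, ← sub_eq_zero]
  simp only [h1]
  rw [sum_sub_of_eq_off e he
    (fun i => b.repr (T b (fun k => (⟨e k, 1⟩ : Σ _ : Fin t, Fin 2)) (fun k => ⟨e k, 0⟩) x) ⟨i, 0⟩
      + b.repr x ⟨i, 1⟩
      + b.repr (T b (fun k => (⟨e k, 1⟩ : Σ _ : Fin t, Fin 2)) (fun k => ⟨e k, 0⟩) x) ⟨i, 0⟩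
        * b.repr x ⟨i, 1⟩)
    (fun i => b.repr x ⟨i, 0⟩ + b.repr x ⟨i, 1⟩ + b.repr x ⟨i, 0⟩ * b.repr x ⟨i, 1⟩)]
  · have hc : ∀ k, b.repr (T b (fun k => (⟨e k, 1⟩ : Σ _ : Fin t, Fin 2)) (fun k => ⟨e k, 0⟩) x)
        ⟨e k, 0⟩ = b.repr x ⟨e k, 0⟩ + ∑ k', b.repr x ⟨e k', 1⟩ := by
      intro k
      rw [repr_T]
      simp [he.eq_iff]
    simp only [hc, Fin.sum_univ_three]
    generalize b.repr x ⟨e 0, 0⟩ = a0
    generalize b.repr x ⟨e 1, 0⟩ = a1
    generalize b.repr x ⟨e 2, 0⟩ = a2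
    generalize b.repr x ⟨e 0, 1⟩ = c0
    generalize b.repr x ⟨e 1, 1⟩ = c1
    generalize b.repr x ⟨e 2, 1⟩ = c2
    linear_combination (2 * (c0 + c1 + c2)) * h2 + hz (c0 + c1 + c2)
  · intro i hi
    rw [repr_T]
    simp [hi]

theorem exists_m2 [Fintype F] (hq : Fintype.card F = 2) (ht : 3 ≤ t)
    (b : Module.Basis (Σ _ : Fin t, Fin 2) F (Fin n → F))
    (hb : ∀ i, D i = Submodule.span F (Set.range fun j => b ⟨i, j⟩)) :
    ∃ L : (Fin n → F) →ₗ[F] (Fin n → F), LinearMap.det L = 1 ∧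
      (∀ x, (wt D (L x) : F) = wt D x) ∧
      ∃ (x₀ : Fin n → F) (i₀ : Fin t), x₀ ∈ D i₀ ∧ ∃ (i1 i2 : Fin t) (j1 j2 : Fin 2), i1 ≠ i2 ∧
        b.repr (L x₀) ⟨i1, j1⟩ ≠ 0 ∧ b.repr (L x₀) ⟨i2, j2⟩ ≠ 0 := by
  classical
  obtain ⟨e, he⟩ : ∃ e : Fin 3 → Fin t, e = fun k => ⟨k.1, by omega⟩ := ⟨_, rfl⟩
  have hinj : Function.Injective e := by
    intro a c hac
    rw [he] at hac
    simpa [Fin.ext_iff] using hac
  refine ⟨T b (fun k => (⟨e k, 1⟩ : Σ _ : Fin t, Fin 2)) (fun k => ⟨e k, 0⟩), ?_, ?_, ?_⟩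
  · rw [det_T]
    simp
  · intro x
    exact inv_m2 hq b hb e hinj x
  · refine ⟨b ⟨e 0, 1⟩, e 0, basis_mem b hb _ _, e 1, e 2, 0, 0, ?_, ?_, ?_⟩
    · intro h
      have := hinj h
      simp at this
    · rw [repr_T]
      simp [Finsupp.single_apply, hinj.eq_iff]
    · rw [repr_T]
      simp [Finsupp.single_apply, hinj.eq_iff]

end Cases

theorem main {F : Type*} [Field F] [Fintype F] (n : ℕ) (hn : 13 ≤ n) {t : ℕ} (m : ℕ)
    (D : Fin t → Submodule F (Fin n → F)) (hD : IsMDecomposition m D)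
    (h : (m = 1 ∧ Fintype.card F ≤ 4) ∨ (m = 2 ∧ Fintype.card F = 2)) :
    ∃ K : Subgroup (Matrix.GeneralLinearGroup (Fin n) F),
      decompositionStabilizer D ⊓ specialLinear (Fin n) F < K ∧ K < specialLinear (Fin n) F := by
  obtain ⟨b, hb⟩ := exists_basis m D hD
  have hcard : n = t * m := by
    have h1 := Module.finrank_eq_card_basis b
    rw [Module.finrank_fin_fun] at h1
    simpa using h1
  have h1 : ∃ L : (Fin n → F) →ₗ[F] (Fin n → F), LinearMap.det L = 1 ∧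
      ∃ x, (wt D (L x) : F) ≠ wt D x := by
    have ht := hD.two_le
    exact exists_not_inv b hb ⟨0, by omega⟩ ⟨1, by omega⟩ (by simp [Fin.ext_iff]) ⟨0, hD.pos⟩
  have h2 : ∃ L : (Fin n → F) →ₗ[F] (Fin n → F), LinearMap.det L = 1 ∧
      (∀ x, (wt D (L x) : F) = wt D x) ∧
      ∃ (x₀ : Fin n → F) (i₀ : Fin t), x₀ ∈ D i₀ ∧ ∃ (i1 i2 : Fin t) (j1 j2 : Fin m), i1 ≠ i2 ∧
        b.repr (L x₀) ⟨i1, j1⟩ ≠ 0 ∧ b.repr (L x₀) ⟨i2, j2⟩ ≠ 0 := by
    rcases h with ⟨rfl, hq⟩ | ⟨rfl, hq⟩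
    · exact exists_m1 hq (by omega) b hb
    · exact exists_m2 hq (by omega) b hb
  obtain ⟨L₁, hL₁, x₁, hx₁⟩ := h1
  obtain ⟨L₂, hL₂, hinv, x₀, i₀, hx₀, i1, i2, j1, j2, h12, hr1, hr2⟩ := h2
  obtain ⟨g₁, hg₁, rfl⟩ := exists_gl L₁ hL₁
  obtain ⟨g₂, hg₂, rfl⟩ := exists_gl L₂ hL₂
  refine ⟨Kgrp D, ?_, ?_⟩
  · rw [SetLike.lt_iff_le_and_exists]
    refine ⟨fun g hg => ⟨hg.2, fun x => by rw [wt_stab D g hg.1 x]⟩, g₂, ⟨hg₂, hinv⟩,
      fun hmem => ?_⟩
    exact not_stab_of b hb g₂ x₀ i₀ hx₀ i1 i2 h12 j1 j2 hr1 hr2 hmem.1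
  · rw [SetLike.lt_iff_le_and_exists]
    exact ⟨fun g hg => hg.1, g₁, hg₁, fun hmem => hx₁ (hmem.2 x₁)⟩

end Cfsg.Agent.Lib.Helper20.C2NonMax
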