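import Cfsg.Prelude.Def_GeometricClasses
import Cfsg.Agent.Lib.Helper20.C2NonMax
import Mathlib

set_option autoImplicit false
set_option linter.unusedSectionVars false

namespace Cfsg.Agent.Lib.Helper20.ExtNonMax

open Cfsg Cfsg.Geo Matrix

section Abstract

variable {F : Type*} [Field F] {n : ℕ} {E : Type*} [Field E] [Algebra F E]

/-- The module structure on `F^n` over a field `E` of matrices. -/
@[reducible] def modE (ρ : E →ₐ[F] Matrix (Fin n) (Fin n) F) : Module E (Fin n → F) :=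
  Module.compHom (Fin n → F)
    (((Matrix.toLinAlgEquiv' : Matrix (Fin n) (Fin n) F ≃ₐ[F] _).toAlgHom.comp ρ).toRingHom)

theorem exists_E_transvection (ρ : E →ₐ[F] Matrix (Fin n) (Fin n) F)
    (T₀ : Submodule F (Fin n → F)) (hT₀ : ∀ (e : E), ∀ u ∈ T₀, ρ e *ᵥ u ∈ T₀)
    (v w : Fin n → F) (hv : v ∈ T₀) (hw : w ∉ T₀) :
    ∃ L : (Fin n → F) →ₗ[F] (Fin n → F), LinearMap.det L = 1 ∧
      (∀ (e : E) (u : Fin n → F), L (ρ e *ᵥ u) = ρ e *ᵥ L u) ∧ (∀ u ∈ T₀, L u = u) ∧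
      L w = w + v := by
  let _ : Module E (Fin n → F) := modE ρ
  have hsmul : ∀ (e : E) (u : Fin n → F), e • u = ρ e *ᵥ u := fun e u => rfl
  have : IsScalarTower F E (Fin n → F) :=
    ⟨fun c e u => by rw [hsmul, hsmul, map_smul, Matrix.smul_mulVec]⟩
  have : Module.Finite E (Fin n → F) := Module.Finite.of_restrictScalars_finite F E (Fin n → F)
  let T : Submodule E (Fin n → F) :=
    { carrier := T₀
      add_mem' := T₀.add_mem
      zero_mem' := T₀.zero_mem
      smul_mem' := fun e u hu => by rw [hsmul]; exact hT₀ e u hu }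
  have hwT : w ∉ T := hw
  obtain ⟨lam, hlam, hmap⟩ := Submodule.exists_dual_map_eq_bot_of_notMem hwT inferInstance
  have hl0' : ∀ u ∈ T₀, lam u = 0 := by
    intro u hu
    have : lam u ∈ T.map lam := Submodule.mem_map_of_mem (show u ∈ T from hu)
    rw [hmap] at this
    simpa using this
  obtain ⟨lam', hlam'⟩ : ∃ lam' : Module.Dual E (Fin n → F), lam' = (lam w)⁻¹ • lam := ⟨_, rfl⟩
  have hl1 : lam' w = 1 := by
    rw [hlam']; simp [hlam]
  have hl0 : ∀ u ∈ T₀, lam' u = 0 := by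
    intro u hu
    rw [hlam']; simp [hl0' u hu]
  refine ⟨(LinearMap.transvection lam' v).restrictScalars F, ?_, ?_, ?_, ?_⟩
  · rw [LinearMap.det_restrictScalars, LinearMap.transvection.det, hl0 v hv, add_zero, map_one]
  · intro e u
    rw [← hsmul, ← hsmul, LinearMap.restrictScalars_apply, LinearMap.restrictScalars_apply, map_smul]
  · intro u hu
    rw [LinearMap.restrictScalars_apply, LinearMap.transvection.apply, hl0 u hu, zero_smul, add_zero]
  · rw [LinearMap.restrictScalars_apply, LinearMap.transvection.apply, hl1, one_smul]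

end Abstract

section Field

variable {F : Type*} [Field F] {n : ℕ}

/-- evaluation of matrices at a vector, as a linear map -/
def ev (u : Fin n → F) : Matrix (Fin n) (Fin n) F →ₗ[F] (Fin n → F) where
  toFun A := A *ᵥ u
  map_add' A B := Matrix.add_mulVec A B u
  map_smul' c A := Matrix.smul_mulVec c A u

theorem ev_apply (u : Fin n → F) (A : Matrix (Fin n) (Fin n) F) : ev u A = A *ᵥ u := rfl

/-- the `K`-line through `v` -/
def line (K : Subalgebra F (Matrix (Fin n) (Fin n) F)) (v : Fin n → F) : Submodule F (Fin n → F) :=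
  (Subalgebra.toSubmodule K).map (ev v)

theorem mem_line {K : Subalgebra F (Matrix (Fin n) (Fin n) F)} {v u : Fin n → F} :
    u ∈ line K v ↔ ∃ k ∈ K, k *ᵥ v = u := by
  unfold line
  rw [Submodule.mem_map]
  rfl

variable {r : ℕ} {K : Subalgebra F (Matrix (Fin n) (Fin n) F)} (hK : IsFieldSubalgebra r K)

include hK in
theorem K_cancel {k : Matrix (Fin n) (Fin n) F} (hk : k ∈ K) (hk0 : k ≠ 0) {v : Fin n → F}
    (hv : k *ᵥ v = 0) : v = 0 := by
  obtain ⟨y, hy, hky⟩ := hK.inv k hk hk0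
  have hyk : y * k = 1 := by rw [← hK.comm k hk y hy, hky]
  calc v = (y * k) *ᵥ v := by rw [hyk, Matrix.one_mulVec]
    _ = y *ᵥ (k *ᵥ v) := (Matrix.mulVec_mulVec v y k).symm
    _ = 0 := by rw [hv, Matrix.mulVec_zero]

include hK in
theorem K_eq_of_mulVec {k k' : Matrix (Fin n) (Fin n) F} (hk : k ∈ K) (hk' : k' ∈ K)
    {v : Fin n → F} (hv0 : v ≠ 0) (hv : k *ᵥ v = k' *ᵥ v) : k = k' := by
  by_contra hne
  have h1 : (k - k') *ᵥ v = 0 := by rw [Matrix.sub_mulVec, hv, sub_self]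
  exact hv0 (K_cancel hK (K.sub_mem hk hk') (sub_ne_zero.mpr hne) h1)

include hK in
/-- a `K`-multiple of `w` in the line of `v` forces `w` into the line -/
theorem mem_line_of_mul {k : Matrix (Fin n) (Fin n) F} (hk : k ∈ K) (hk0 : k ≠ 0)
    {v w : Fin n → F} (h : k *ᵥ w ∈ line K v) : w ∈ line K v := by
  obtain ⟨y, hy, hky⟩ := hK.inv k hk hk0
  have hyk : y * k = 1 := by rw [← hK.comm k hk y hy, hky]
  obtain ⟨a, ha, hav⟩ := mem_line.mp h
  refine mem_line.mpr ⟨y * a, K.mul_mem hy ha, ?_⟩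
  calc (y * a) *ᵥ v = y *ᵥ (a *ᵥ v) := (Matrix.mulVec_mulVec v y a).symm
    _ = y *ᵥ (k *ᵥ w) := by rw [hav]
    _ = (y * k) *ᵥ w := Matrix.mulVec_mulVec w y k
    _ = w := by rw [hyk, Matrix.one_mulVec]

include hK in
theorem exists_not_mem_line (hrn : r < n) (v : Fin n → F) : ∃ w, w ∉ line K v := by
  by_contra hcon
  have htop : line K v = ⊤ := by
    rw [eq_top_iff]
    intro w _
    by_contra hw
    exact hcon ⟨w, hw⟩
  have h1 : Module.finrank F (line K v) ≤ Module.finrank F (Subalgebra.toSubmodule K) :=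
    Submodule.finrank_map_le _ _
  have h2 : Module.finrank F (Subalgebra.toSubmodule K) = r := hK.finrank_eq
  rw [htop, finrank_top, Module.finrank_fin_fun] at h1
  omega

include hK in
/-- The pattern: a linear map of determinant one fixing the `K`-line of `v` and `x w`, moving `w`
to `w + v`, gives an element of `SL` normalising no subalgebra of `K` containing `x`. -/
theorem not_normalize (L : (Fin n → F) →ₗ[F] (Fin n → F)) (g : Matrix.GeneralLinearGroup (Fin n) F)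
    (hg : Matrix.toLin' (g : Matrix (Fin n) (Fin n) F) = L) (v w : Fin n → F) (hv0 : v ≠ 0)
    (x : Matrix (Fin n) (Fin n) F) (hx0 : x ≠ 0)
    (hfix : ∀ u ∈ line K v, L u = u) (hxw : L (x *ᵥ w) = x *ᵥ w) (hw : L w = w + v)
    (K' : Subalgebra F (Matrix (Fin n) (Fin n) F)) (hK' : K' ≤ K) (hx : x ∈ K') :
    g ∉ subalgebraNormalizer K' := by
  intro hmem
  have hgL : ∀ u, (g : Matrix (Fin n) (Fin n) F) *ᵥ u = L u := by
    intro u; rw [← hg]; rfl
  have hxK : x ∈ K := hK' hx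
  have hv : v ∈ line K v := mem_line.mpr ⟨1, K.one_mem, Matrix.one_mulVec v⟩
  have hxv : x *ᵥ v ∈ line K v := mem_line.mpr ⟨x, hxK, rfl⟩
  have hy : (g : Matrix (Fin n) (Fin n) F) * x *
      ((g⁻¹ : Matrix.GeneralLinearGroup (Fin n) F) : Matrix (Fin n) (Fin n) F) ∈ K' := (hmem x).mp hx
  have hginv : ((g⁻¹ : Matrix.GeneralLinearGroup (Fin n) F) : Matrix (Fin n) (Fin n) F) *ᵥ v = v := by
    have h1 : (g : Matrix (Fin n) (Fin n) F) *ᵥ v = v := by rw [hgL, hfix v hv]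
    calc ((g⁻¹ : Matrix.GeneralLinearGroup (Fin n) F) : Matrix (Fin n) (Fin n) F) *ᵥ v
        = ((g⁻¹ : Matrix.GeneralLinearGroup (Fin n) F) : Matrix (Fin n) (Fin n) F) *ᵥ
            ((g : Matrix (Fin n) (Fin n) F) *ᵥ v) := by rw [h1]
      _ = v := by
          rw [Matrix.mulVec_mulVec, ← Units.val_mul, inv_mul_cancel, Units.val_one, Matrix.one_mulVec]
  have hyv : ((g : Matrix (Fin n) (Fin n) F) * x *
      ((g⁻¹ : Matrix.GeneralLinearGroup (Fin n) F) : Matrix (Fin n) (Fin n) F)) *ᵥ v = x *ᵥ v := by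
    rw [← Matrix.mulVec_mulVec, hginv, ← Matrix.mulVec_mulVec, hgL, hfix _ hxv]
  have hyx := K_eq_of_mulVec hK (hK' hy) hxK hv0 hyv
  have hcomm : (g : Matrix (Fin n) (Fin n) F) * x = x * (g : Matrix (Fin n) (Fin n) F) := by
    have h2 := congrArg (fun A => A * (g : Matrix (Fin n) (Fin n) F)) hyx
    simp only [mul_assoc] at h2
    rw [← Units.val_mul, inv_mul_cancel, Units.val_one, mul_one] at h2
    exact h2
  have h3 : L (x *ᵥ w) = x *ᵥ L w := by
    rw [← hgL, ← hgL, Matrix.mulVec_mulVec, Matrix.mulVec_mulVec, hcomm]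
  rw [hxw, hw, Matrix.mulVec_add] at h3
  have h4 : x *ᵥ v = 0 := by
    have := h3
    simpa using this.symm
  exact hv0 (K_cancel hK hxK hx0 h4)

open Classical in
/-- The field structure on a commutative subalgebra of matrices whose non-zero elements are
invertible inside it. -/
@[reducible] noncomputable def fieldOfSub (hn : 0 < n) (K' : Subalgebra F (Matrix (Fin n) (Fin n) F))
    (hc : ∀ x ∈ K', ∀ y ∈ K', x * y = y * x) (hi : ∀ x ∈ K', x ≠ 0 → ∃ y ∈ K', x * y = 1) :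
    Field ↥K' where
  __ := (inferInstance : Ring ↥K')
  mul_comm a b := Subtype.ext (hc a a.2 b b.2)
  inv a := if ha : a = 0 then 0 else
    ⟨Classical.choose (hi a a.2 (fun h => ha (Subtype.ext h))),
      (Classical.choose_spec (hi a a.2 (fun h => ha (Subtype.ext h)))).1⟩
  exists_pair_ne := ⟨0, 1, fun h => by
    have h1 : (0 : Matrix (Fin n) (Fin n) F) = 1 := congrArg Subtype.val h
    have : Nonempty (Fin n) := ⟨⟨0, hn⟩⟩
    exact zero_ne_one h1⟩
  mul_inv_cancel a ha := by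
    apply Subtype.ext
    have h2 := (Classical.choose_spec (hi a a.2 (fun h => ha (Subtype.ext h)))).2
    show (a : Matrix (Fin n) (Fin n) F) * ((if ha : a = 0 then (0 : ↥K') else
      ⟨Classical.choose (hi a a.2 (fun h => ha (Subtype.ext h))),
        (Classical.choose_spec (hi a a.2 (fun h => ha (Subtype.ext h)))).1⟩ : ↥K') :
          Matrix (Fin n) (Fin n) F) = 1
    rw [dif_neg ha]
    exact h2
  inv_zero := dif_pos rfl
  nnqsmul := _
  nnqsmul_def _ _ := rfl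
  qsmul := _
  qsmul_def _ _ := rfl

theorem mem_normalizer_of_commute (g : Matrix.GeneralLinearGroup (Fin n) F)
    (K' : Subalgebra F (Matrix (Fin n) (Fin n) F))
    (h : ∀ k ∈ K', (g : Matrix (Fin n) (Fin n) F) * k = k * (g : Matrix (Fin n) (Fin n) F)) :
    g ∈ subalgebraNormalizer K' := by
  have h1 : ∀ k ∈ K', (g : Matrix (Fin n) (Fin n) F) * k *
      ((g⁻¹ : Matrix.GeneralLinearGroup (Fin n) F) : Matrix (Fin n) (Fin n) F) = k := by
    intro k hk
    rw [h k hk, mul_assoc, ← Units.val_mul, mul_inv_cancel, Units.val_one, mul_one]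
  intro k
  constructor
  · intro hk
    rw [h1 k hk]
    exact hk
  · intro hk
    have hc := h _ hk
    have e1 : (g : Matrix (Fin n) (Fin n) F) * k *
        ((g⁻¹ : Matrix.GeneralLinearGroup (Fin n) F) : Matrix (Fin n) (Fin n) F) *
          (g : Matrix (Fin n) (Fin n) F) = (g : Matrix (Fin n) (Fin n) F) * k :=
      Units.inv_mul_cancel_right _ g
    have e3 : (g : Matrix (Fin n) (Fin n) F) * k *
        ((g⁻¹ : Matrix.GeneralLinearGroup (Fin n) F) : Matrix (Fin n) (Fin n) F) = k :=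
      (Units.mul_right_inj g).mp (hc.trans e1)
    rw [← e3]
    exact hk

include hK in
theorem exists_g1 (hrn : r < n) (K' : Subalgebra F (Matrix (Fin n) (Fin n) F)) (hK' : K' ≤ K)
    (x : Matrix (Fin n) (Fin n) F) (hx : x ∈ K')
    (hxs : ∀ c : F, x ≠ c • (1 : Matrix (Fin n) (Fin n) F)) :
    ∃ g : Matrix.GeneralLinearGroup (Fin n) F, g ∈ specialLinear (Fin n) F ∧
      g ∉ subalgebraNormalizer K' := by
  have hn : 0 < n := by omega
  obtain ⟨v, hv0⟩ : ∃ v : Fin n → F, v ≠ 0 :=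
    ⟨Pi.single ⟨0, hn⟩ 1, fun h => by simpa using congrFun h ⟨0, hn⟩⟩
  obtain ⟨w, hw⟩ := exists_not_mem_line hK hrn v
  have hxK := hK' hx
  have hx0 : x ≠ 0 := by
    intro h
    exact hxs 0 (by rw [h, zero_smul])
  obtain ⟨U, hU⟩ : ∃ U : Submodule F (Fin n → F), U = line K v ⊔ Submodule.span F {x *ᵥ w} :=
    ⟨_, rfl⟩
  have hlU : line K v ≤ U := by rw [hU]; exact le_sup_left
  have hxwU : x *ᵥ w ∈ U := by
    rw [hU]; exact (le_sup_right : Submodule.span F {x *ᵥ w} ≤ _) (Submodule.mem_span_singleton_self _)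
  have hwU : w ∉ U := by
    intro hmem
    rw [hU] at hmem
    obtain ⟨a, ha, b, hb, hab⟩ := Submodule.mem_sup.mp hmem
    obtain ⟨c, rfl⟩ := Submodule.mem_span_singleton.mp hb
    have h1 : (1 - c • x) *ᵥ w ∈ line K v := by
      have : (1 - c • x) *ᵥ w = a := by
        rw [Matrix.sub_mulVec, Matrix.one_mulVec, Matrix.smul_mulVec]
        nth_rewrite 1 [← hab]
        abel
      rw [this]; exact ha
    have hne : (1 - c • x) ≠ 0 := by
      intro h0
      have hcx : c • x = 1 := (sub_eq_zero.mp h0).symm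
      have hc : c ≠ 0 := by
        rintro rfl
        rw [zero_smul] at hcx
        have : Nonempty (Fin n) := ⟨⟨0, hn⟩⟩
        exact zero_ne_one hcx
      apply hxs c⁻¹
      rw [← hcx, smul_smul, inv_mul_cancel₀ hc, one_smul]
    exact hw (mem_line_of_mul hK (K.sub_mem K.one_mem (K.smul_mem hxK c)) hne h1)
  obtain ⟨φ, hφw, hmap⟩ := Submodule.exists_dual_map_eq_bot_of_notMem hwU inferInstance
  have hφ0 : ∀ u ∈ U, φ u = 0 := by
    intro u hu
    have : φ u ∈ U.map φ := Submodule.mem_map_of_mem hu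
    rw [hmap] at this
    simpa using this
  obtain ⟨ψ, hψ⟩ : ∃ ψ : Module.Dual F (Fin n → F), ψ = (φ w)⁻¹ • φ := ⟨_, rfl⟩
  have hψ1 : ψ w = 1 := by rw [hψ]; simp [hφw]
  have hψ0 : ∀ u ∈ U, ψ u = 0 := by
    intro u hu; rw [hψ]; simp [hφ0 u hu]
  have hvU : v ∈ U := hlU (mem_line.mpr ⟨1, K.one_mem, Matrix.one_mulVec v⟩)
  obtain ⟨g, hgSL, hg⟩ := C2NonMax.exists_gl (LinearMap.transvection ψ v)
    (by rw [LinearMap.transvection.det, hψ0 v hvU, add_zero])
  refine ⟨g, hgSL, not_normalize hK _ g hg v w hv0 x hx0 ?_ ?_ ?_ K' hK' hx⟩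
  · intro u hu
    rw [LinearMap.transvection.apply, hψ0 u (hlU hu), zero_smul, add_zero]
  · rw [LinearMap.transvection.apply, hψ0 _ hxwU, zero_smul, add_zero]
  · rw [LinearMap.transvection.apply, hψ1, one_smul]

include hK in
theorem exists_g2 (hrn : r < n) (K₁ : Subalgebra F (Matrix (Fin n) (Fin n) F)) (hK₁ : K₁ ≤ K)
    (hinv₁ : ∀ x ∈ K₁, x ≠ 0 → ∃ y ∈ K₁, x * y = 1)
    (x' : Matrix (Fin n) (Fin n) F) (hx' : x' ∈ K) (hx'1 : x' ∉ K₁) :
    ∃ g : Matrix.GeneralLinearGroup (Fin n) F, g ∈ specialLinear (Fin n) F ∧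
      g ∈ subalgebraNormalizer K₁ ∧ g ∉ subalgebraNormalizer K := by
  have hn : 0 < n := by omega
  obtain ⟨v, hv0⟩ : ∃ v : Fin n → F, v ≠ 0 :=
    ⟨Pi.single ⟨0, hn⟩ 1, fun h => by simpa using congrFun h ⟨0, hn⟩⟩
  obtain ⟨w, hw⟩ := exists_not_mem_line hK hrn v
  have hx0 : x' ≠ 0 := by
    intro h
    exact hx'1 (h ▸ K₁.zero_mem)
  obtain ⟨T₀, hT⟩ : ∃ T₀ : Submodule F (Fin n → F), T₀ = line K v ⊔ line K₁ (x' *ᵥ w) := ⟨_, rfl⟩
  have hlT : line K v ≤ T₀ := by rw [hT]; exact le_sup_left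
  have hxwT : x' *ᵥ w ∈ T₀ := by
    rw [hT]
    exact (le_sup_right : line K₁ (x' *ᵥ w) ≤ _) (mem_line.mpr ⟨1, K₁.one_mem, Matrix.one_mulVec _⟩)
  have hvT : v ∈ T₀ := hlT (mem_line.mpr ⟨1, K.one_mem, Matrix.one_mulVec v⟩)
  have hwT : w ∉ T₀ := by
    intro hmem
    rw [hT] at hmem
    obtain ⟨a, ha, b, hb, hab⟩ := Submodule.mem_sup.mp hmem
    obtain ⟨k₁, hk₁, rfl⟩ := mem_line.mp hb
    have h1 : (1 - k₁ * x') *ᵥ w ∈ line K v := by
      have : (1 - k₁ * x') *ᵥ w = a := by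
        rw [Matrix.sub_mulVec, Matrix.one_mulVec, ← Matrix.mulVec_mulVec]
        nth_rewrite 1 [← hab]
        abel
      rw [this]; exact ha
    have hne : (1 - k₁ * x') ≠ 0 := by
      intro h0
      have h10 : k₁ * x' = 1 := (sub_eq_zero.mp h0).symm
      have hk0 : k₁ ≠ 0 := by
        rintro rfl
        rw [zero_mul] at h10
        have : Nonempty (Fin n) := ⟨⟨0, hn⟩⟩
        exact zero_ne_one h10
      obtain ⟨y, hy, hky⟩ := hinv₁ k₁ hk₁ hk0
      have hxy : x' = y := by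
        calc x' = (y * k₁) * x' := by rw [← hK.comm k₁ (hK₁ hk₁) y (hK₁ hy), hky, one_mul]
          _ = y * (k₁ * x') := mul_assoc _ _ _
          _ = y := by rw [h10, mul_one]
      exact hx'1 (hxy ▸ hy)
    exact hw (mem_line_of_mul hK (K.sub_mem K.one_mem (K.mul_mem (hK₁ hk₁) hx')) hne h1)
  have hT₀ : ∀ e ∈ K₁, ∀ u ∈ T₀, e *ᵥ u ∈ T₀ := by
    intro e he u hu
    rw [hT] at hu ⊢
    obtain ⟨a, ha, b, hb, rfl⟩ := Submodule.mem_sup.mp hu
    obtain ⟨k, hk, rfl⟩ := mem_line.mp ha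
    obtain ⟨k₁, hk₁, rfl⟩ := mem_line.mp hb
    rw [Matrix.mulVec_add]
    apply Submodule.add_mem
    · apply (le_sup_left : line K v ≤ _)
      exact mem_line.mpr ⟨e * k, K.mul_mem (hK₁ he) hk, (Matrix.mulVec_mulVec v e k).symm⟩
    · apply (le_sup_right : line K₁ (x' *ᵥ w) ≤ _)
      exact mem_line.mpr ⟨e * k₁, K₁.mul_mem he hk₁, (Matrix.mulVec_mulVec _ e k₁).symm⟩
  -- the field structure on K₁
  let instField : Field ↥K₁ := fieldOfSub hn K₁
    (fun a ha b hb => hK.comm a (hK₁ ha) b (hK₁ hb)) hinv₁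
  obtain ⟨L, hdet, hcomm, hfix, hLw⟩ := exists_E_transvection (E := ↥K₁) K₁.val T₀
    (fun e u hu => hT₀ e e.2 u hu) v w hvT hwT
  obtain ⟨g, hgSL, hg⟩ := C2NonMax.exists_gl L hdet
  have hgL : ∀ u, (g : Matrix (Fin n) (Fin n) F) *ᵥ u = L u := by
    intro u; rw [← hg]; rfl
  refine ⟨g, hgSL, ?_, ?_⟩
  · apply mem_normalizer_of_commute
    intro k hk
    apply Matrix.toLin'.injective
    apply LinearMap.ext
    intro u
    rw [Matrix.toLin'_mul_apply, Matrix.toLin'_mul_apply, Matrix.toLin'_apply, Matrix.toLin'_apply,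
      Matrix.toLin'_apply, Matrix.toLin'_apply, hgL, hgL]
    exact hcomm ⟨k, hk⟩ u
  · exact not_normalize hK L g hg v w hv0 x' hx0 (fun u hu => hfix u (hlT hu)) (hfix _ hxwT) hLw
      K le_rfl hx'

end Field

section Fixed

variable {F : Type*} [Field F] [Fintype F] {n : ℕ} {r : ℕ}
  {K : Subalgebra F (Matrix (Fin n) (Fin n) F)}

/-- The fixed points in `K` of the power map `k ↦ k ^ (q ^ s)`. -/
def fixedSub (hK : IsFieldSubalgebra r K) (hn : 0 < n) (s : ℕ) :
    Subalgebra F (Matrix (Fin n) (Fin n) F) where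
  carrier := {k | k ∈ K ∧ k ^ (Fintype.card F ^ s) = k}
  mul_mem' := by
    rintro a b ⟨ha, ha'⟩ ⟨hb, hb'⟩
    refine ⟨K.mul_mem ha hb, ?_⟩
    rw [(show Commute a b from hK.comm a ha b hb).mul_pow, ha', hb']
  add_mem' := by
    rintro a b ⟨ha, ha'⟩ ⟨hb, hb'⟩
    refine ⟨K.add_mem ha hb, ?_⟩
    have hchar : CharP F (ringChar F) := ringChar.charP F
    have hp : Fact (ringChar F).Prime := ⟨CharP.char_is_prime F (ringChar F)⟩
    obtain ⟨f, -, hq⟩ := FiniteField.card F (ringChar F)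
    have hne : Nonempty (Fin n) := ⟨⟨0, hn⟩⟩
    have hcm : CharP (Matrix (Fin n) (Fin n) F) (ringChar F) := Matrix.charP (ringChar F)
    have hab : Commute a b := hK.comm a ha b hb
    have e : Fintype.card F ^ s = ringChar F ^ ((f : ℕ) * s) := by rw [hq, pow_mul]
    rw [e] at ha' hb' ⊢
    rw [add_pow_char_pow_of_commute (ringChar F) ((f : ℕ) * s) hab, ha', hb']
  algebraMap_mem' := by
    intro c
    refine ⟨K.algebraMap_mem c, ?_⟩
    rw [← map_pow, FiniteField.pow_card_pow]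

theorem mem_fixedSub (hK : IsFieldSubalgebra r K) (hn : 0 < n) (s : ℕ)
    (k : Matrix (Fin n) (Fin n) F) :
    k ∈ fixedSub hK hn s ↔ k ∈ K ∧ k ^ (Fintype.card F ^ s) = k := Iff.rfl

theorem fixedSub_le (hK : IsFieldSubalgebra r K) (hn : 0 < n) (s : ℕ) : fixedSub hK hn s ≤ K :=
  fun _ hk => hk.1

theorem fixedSub_inv (hK : IsFieldSubalgebra r K) (hn : 0 < n) (s : ℕ) :
    ∀ x ∈ fixedSub hK hn s, x ≠ 0 → ∃ y ∈ fixedSub hK hn s, x * y = 1 := by
  intro x hx hx0
  obtain ⟨y, hy, hxy⟩ := hK.inv x hx.1 hx0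
  refine ⟨y, ⟨hy, ?_⟩, hxy⟩
  have hyx : y * x = 1 := by rw [← hK.comm x hx.1 y hy, hxy]
  have h1 : x * y ^ (Fintype.card F ^ s) = 1 := by
    have h2 : (x * y) ^ (Fintype.card F ^ s) = 1 := by rw [hxy, one_pow]
    rw [(show Commute x y from hK.comm x hx.1 y hy).mul_pow, hx.2] at h2
    exact h2
  calc y ^ (Fintype.card F ^ s) = (y * x) * y ^ (Fintype.card F ^ s) := by rw [hyx, one_mul]
    _ = y * (x * y ^ (Fintype.card F ^ s)) := mul_assoc _ _ _
    _ = y := by rw [h1, mul_one]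

theorem normalizer_le (hK : IsFieldSubalgebra r K) (hn : 0 < n) (s : ℕ) :
    subalgebraNormalizer K ≤ subalgebraNormalizer (fixedSub hK hn s) := by
  intro g hg k
  rw [mem_fixedSub, mem_fixedSub, Units.conj_pow, ← hg k]
  constructor
  · rintro ⟨h1, h2⟩
    exact ⟨h1, by rw [h2]⟩
  · rintro ⟨h1, h2⟩
    refine ⟨h1, ?_⟩
    have h3 := (Units.mul_left_inj (g⁻¹ : Matrix.GeneralLinearGroup (Fin n) F)).mp h2
    exact (Units.mul_right_inj g).mp h3

theorem exists_gen (hK : IsFieldSubalgebra r K) (hn : 0 < n) :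
    ∃ ζ ∈ K, ∀ j : ℕ, ζ ^ j = 1 ↔ (Fintype.card F ^ r - 1) ∣ j := by
  classical
  let instField : Field ↥K := fieldOfSub hn K hK.comm hK.inv
  have hcard : Nat.card ↥K = Fintype.card F ^ r := by
    have h := Module.natCard_eq_pow_finrank (K := F) (V := ↥K)
    rw [hK.finrank_eq] at h
    rw [h, Nat.card_eq_fintype_card]
  obtain ⟨g, hg⟩ := IsCyclic.exists_ofOrder_eq_natCard (α := (↥K)ˣ)
  rw [Nat.card_units, hcard] at hg
  refine ⟨((g : ↥K) : Matrix (Fin n) (Fin n) F), (g : ↥K).2, fun j => ?_⟩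
  rw [← hg, orderOf_dvd_iff_pow_eq_one]
  constructor
  · intro h
    apply Units.ext
    apply Subtype.ext
    exact h
  · intro h
    have h1 := congrArg (fun u : (↥K)ˣ => ((u : ↥K) : Matrix (Fin n) (Fin n) F)) h
    exact h1

theorem main (n r : ℕ) (hr1 : 1 < r) (hrp : ¬ r.Prime) (hlt : r < n)
    (K : Subalgebra F (Matrix (Fin n) (Fin n) F)) (hK : IsFieldSubalgebra r K) :
    ¬ IsCoatom (subalgebraNormalizer K) ∧
      ¬ IsMaximalIn (specialLinear (Fin n) F)
        (subalgebraNormalizer K ⊓ specialLinear (Fin n) F) := by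
  have hn : 0 < n := by omega
  have hne : Nonempty (Fin n) := ⟨⟨0, hn⟩⟩
  obtain ⟨s, hs, hsr⟩ := Nat.exists_prime_and_dvd (show r ≠ 1 by omega)
  have hs2 : 2 ≤ s := hs.two_le
  have hsr' : s < r := lt_of_le_of_ne (Nat.le_of_dvd (by omega) hsr) (fun h => hrp (h ▸ hs))
  obtain ⟨q, hq⟩ : ∃ q, q = Fintype.card F := ⟨_, rfl⟩
  have hq2 : 2 ≤ q := by rw [hq]; exact Fintype.one_lt_card
  obtain ⟨ζ, hζK, hζ⟩ := exists_gen hK hn
  rw [← hq] at hζ
  have hqs : q ^ s < q ^ r := Nat.pow_lt_pow_right (by omega) hsr'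
  have hqs1 : q < q ^ s := by
    calc q = q ^ 1 := (pow_one q).symm
      _ < q ^ s := Nat.pow_lt_pow_right (by omega) (by omega)
  obtain ⟨m, hm⟩ : q ^ s - 1 ∣ q ^ r - 1 := Nat.pow_sub_one_dvd_pow_sub_one q hsr
  have hm0 : 0 < m := by
    rcases Nat.eq_zero_or_pos m with h | h
    · rw [h] at hm; omega
    · exact h
  have hmle : m ≤ q ^ r - 1 := by
    rw [hm]
    exact Nat.le_mul_of_pos_left m (by omega)
  have hζ1 : ζ ^ (q ^ r - 1) = 1 := (hζ _).mpr dvd_rfl
  have hζ' : ζ ∉ fixedSub hK hn s := by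
    intro hmem
    have h1 : ζ ^ (q ^ s) = ζ := by rw [hq]; exact hmem.2
    have h2 : ζ ^ (q ^ s + (q ^ r - 2)) = 1 := by
      rw [pow_add, h1, ← pow_succ']
      have e : q ^ r - 2 + 1 = q ^ r - 1 := by omega
      rw [e]; exact hζ1
    have h3 := (hζ _).mp h2
    have h4 : q ^ r - 1 ∣ q ^ s - 1 := by
      have e : q ^ s + (q ^ r - 2) = (q ^ s - 1) + (q ^ r - 1) := by omega
      rw [e] at h3
      exact (Nat.dvd_add_left dvd_rfl).mp h3
    have := Nat.le_of_dvd (by omega) h4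
    omega
  have hxK₁ : ζ ^ m ∈ fixedSub hK hn s := by
    refine ⟨K.pow_mem hζK m, ?_⟩
    rw [← hq]
    have e : q ^ s = (q ^ s - 1) + 1 := by omega
    rw [e, pow_succ, ← pow_mul, mul_comm m, ← hm, hζ1, one_mul]
  have hxs : ∀ c : F, ζ ^ m ≠ c • (1 : Matrix (Fin n) (Fin n) F) := by
    intro c hc
    have hc0 : c ≠ 0 := by
      rintro rfl
      rw [zero_smul] at hc
      have h0 : ζ ^ (q ^ r - 1) = 0 := by
        have e : q ^ r - 1 = m + (q ^ r - 1 - m) := by omega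
        rw [e, pow_add, hc, zero_mul]
      rw [hζ1] at h0
      exact one_ne_zero h0
    have h1 : (ζ ^ m) ^ (q - 1) = 1 := by
      rw [hc, smul_pow, one_pow, hq, FiniteField.pow_card_sub_one_eq_one c hc0, one_smul]
    rw [← pow_mul] at h1
    have h2 := (hζ _).mp h1
    rw [hm, mul_comm] at h2
    have h3 : q ^ s - 1 ∣ q - 1 := Nat.dvd_of_mul_dvd_mul_left hm0 h2
    have := Nat.le_of_dvd (by omega) h3
    omega
  obtain ⟨g₁, hg₁SL, hg₁⟩ := exists_g1 hK hlt (fixedSub hK hn s) (fixedSub_le hK hn s) (ζ ^ m)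
    hxK₁ hxs
  obtain ⟨g₂, hg₂SL, hg₂N, hg₂⟩ := exists_g2 hK hlt (fixedSub hK hn s) (fixedSub_le hK hn s)
    (fixedSub_inv hK hn s) ζ hζK hζ'
  have hle := normalizer_le hK hn s
  constructor
  · intro hco
    have hlt' : subalgebraNormalizer K < subalgebraNormalizer (fixedSub hK hn s) :=
      lt_of_le_of_ne hle (fun h => hg₂ (h ▸ hg₂N))
    have htop := hco.2 _ hlt'
    exact hg₁ (htop ▸ Subgroup.mem_top g₁)
  · rintro ⟨-, hmax⟩
    rcases hmax (subalgebraNormalizer (fixedSub hK hn s) ⊓ specialLinear (Fin n) F)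
      (inf_le_inf_right _ hle) inf_le_right with h | h
    · have h5 : g₂ ∈ subalgebraNormalizer K ⊓ specialLinear (Fin n) F :=
        h ▸ (⟨hg₂N, hg₂SL⟩ : g₂ ∈ subalgebraNormalizer (fixedSub hK hn s) ⊓ specialLinear (Fin n) F)
      exact hg₂ h5.1
    · have h5 : g₁ ∈ subalgebraNormalizer (fixedSub hK hn s) ⊓ specialLinear (Fin n) F := by
        rw [h]; exact hg₁SL
      exact hg₁ h5.1

end Fixed

end Cfsg.Agent.Lib.Helper20.ExtNonMax
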